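import Mathlib

/-! Filling a biadditive relation from a torus orbit. -/

set_option autoImplicit false
set_option linter.unusedSectionVars false

namespace Cfsg.Agent.KnownA.Pres3

variable {F : Type*} [Field F]

/-- Closed sets spanned by the given elements under multiplication by `m`. -/
def Spans (m : F) (B : List F) : Prop :=
  ∀ T : F → Prop, T 0 → (∀ a b, T a → T b → T (a + b)) → (∀ t, T t → T (m * t)) → (∀ b ∈ B, T b) → ∀ t, T t

theorem spans_of_adjoin {p : ℕ} [Fact p.Prime] [Algebra (ZMod p) F] {m b : F} (hb : b ≠ 0)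
    (hm : Algebra.adjoin (ZMod p) {m} = ⊤) : Spans m [b] := by
  intro T h0 hadd hmul hB t
  have hb' : T b := hB b (by simp)
  have hnsmul : ∀ (n : ℕ) s, T s → T (n • s) := by
    intro n s hs
    induction n with
    | zero => rwa [zero_smul]
    | succ n ih => rw [succ_nsmul]; exact hadd _ _ ih hs
  have : t * b⁻¹ ∈ Algebra.adjoin (ZMod p) ({m} : Set F) := by rw [hm]; trivial
  rw [Algebra.adjoin_singleton_eq_range_aeval] at this
  obtain ⟨P, hP⟩ := this
  have key : ∀ P : Polynomial (ZMod p), ∀ s, T s → T (Polynomial.aeval m P * s) := by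
    intro P
    induction P using Polynomial.induction_on' with
    | add P Q hP hQ => intro s hs; rw [map_add, add_mul]; exact hadd _ _ (hP s hs) (hQ s hs)
    | monomial i a =>
      intro s hs
      have hpow : ∀ i : ℕ, T (m ^ i * s) := by
        intro i
        induction i with
        | zero => rwa [pow_zero, one_mul]
        | succ i ih => rw [pow_succ', mul_assoc]; exact hmul _ ih
      rw [Polynomial.aeval_monomial, ← ZMod.natCast_zmod_val a, map_natCast, mul_assoc, ← nsmul_eq_mul]
      exact hnsmul _ _ (hpow i)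
  have := key P b hb'
  change (Polynomial.aeval m).toRingHom P = _ at hP
  rw [show (Polynomial.aeval m P : F) = t * b⁻¹ from hP, inv_mul_cancel_right₀ hb] at this
  exact this

theorem spans_inv [Fintype F] {m : F} {B : List F} (h : Spans m B) : Spans m⁻¹ B := by
  intro T h0 hadd hmul hB
  refine h T h0 hadd (fun t ht => ?_) hB
  by_cases hm : m = 0
  · rw [hm, zero_mul]; exact h0
  have hq : 2 ≤ Fintype.card F := Fintype.one_lt_card
  have hpow : ∀ i : ℕ, T ((m⁻¹) ^ i * t) := by
    intro i
    induction i with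
    | zero => rwa [pow_zero, one_mul]
    | succ i ih => rw [pow_succ', mul_assoc]; exact hmul _ ih
  have e : (m⁻¹) ^ (Fintype.card F - 2) = m := by
    have h1 := FiniteField.pow_card_sub_one_eq_one m⁻¹ (inv_ne_zero hm)
    rw [show Fintype.card F - 1 = Fintype.card F - 2 + 1 by omega, pow_succ] at h1
    rw [eq_inv_of_mul_eq_one_left h1, inv_inv]
  exact e ▸ hpow (Fintype.card F - 2)

/-- From one torus orbit to all pairs. -/
theorem fill {S : F → F → Prop} (h0a : ∀ b, S 0 b) (h0b : ∀ a, S a 0)
    (hadd : ∀ a b b', S a b → S a b' → S a (b + b')) {l k m : F} (hk : k ≠ 0)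
    (h1 : ∀ a b, S a b → S (l * a) (k * b)) (h2 : ∀ a b, S a b → S a (m * b))
    (hl : ∀ a : F, a ≠ 0 → ∃ i : ℕ, l ^ i = a) {B : List F} (hB : Spans m B) (hbase : ∀ b ∈ B, S 1 b) :
    ∀ a b, S a b := by
  have hone := hB (S 1) (h0b 1) (hadd 1) (h2 1) hbase
  intro a b
  by_cases ha : a = 0
  · rw [ha]; exact h0a b
  obtain ⟨i, rfl⟩ := hl a ha
  have : ∀ (j : ℕ) (t : F), S (l ^ j) t := by
    intro j
    induction j with
    | zero => intro t; rw [pow_zero]; exact hone t
    | succ j ih =>
      intro t
      have := h1 _ _ (ih (k⁻¹ * t))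
      rwa [← pow_succ', ← mul_assoc, mul_inv_cancel₀ hk, one_mul] at this
  exact this i b

end Cfsg.Agent.KnownA.Pres3
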