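import Cfsg.Agent.KnownA.Pres.OrbitRels

/-! The orbit of a root element under a full torus element and a second one. -/

set_option autoImplicit false
set_option linter.unusedSectionVars false

namespace Cfsg.Agent.KnownA.Pres3

open Polynomial Cfsg.Agent.KnownA.Pres

theorem exists_kill {p : ℕ} [Fact p.Prime] {F : Type*} [Field F] [Finite F] [Algebra (ZMod p) F] (l : F) {a : ℕ}
    (hpa : p ∣ a) (hl : l ^ a = 1 + l) (lam : F) (hgen : Algebra.adjoin (ZMod p) {l} = ⊤) :
    ∃ Q : (ZMod p)[X], aeval l Q = lam ∧ ∀ n : ℕ, 0 < n → ∃ A B : (ZMod p)[X],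
      minpoly (ZMod p) l = A * (X ^ a - X - 1) + B * (Q ^ n - 1) := by
  set R : (ZMod p)[X] := X ^ a - X - 1 with hR
  set f := minpoly (ZMod p) l with hf
  have hsep : R.Separable := by
    rw [separable_def]
    have hd : derivative R = -1 := by
      rw [hR, derivative_sub, derivative_sub, derivative_X_pow, derivative_X, derivative_one,
        (CharP.cast_eq_zero_iff (ZMod p) p a).mpr hpa]
      simp
    rw [hd]
    exact IsCoprime.neg_right isCoprime_one_right
  obtain ⟨R', hR'⟩ : f ∣ R := minpoly.dvd _ _ (by simp [hR, hl])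
  obtain ⟨s, t, hst⟩ : IsCoprime f R' := by rw [hR'] at hsep; exact hsep.isCoprime
  obtain ⟨Q₀, hQ₀⟩ : ∃ Q₀ : (ZMod p)[X], aeval l Q₀ = lam := by
    have : lam ∈ Algebra.adjoin (ZMod p) ({l} : Set F) := by rw [hgen]; trivial
    rwa [Algebra.adjoin_singleton_eq_range_aeval] at this
  refine ⟨Q₀ * (t * R'), ?_, fun n hn => ?_⟩
  · have e := congrArg (aeval l) hst
    rw [map_add, map_mul, map_mul, hf, minpoly.aeval, mul_zero, zero_add, map_one] at e
    rw [map_mul, map_mul, hQ₀, e, mul_one]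
  · obtain ⟨m, rfl⟩ : ∃ m, n = m + 1 := ⟨n - 1, by omega⟩
    refine ⟨Q₀ * t * (Q₀ * (t * R')) ^ m, -f, ?_⟩
    rw [hR']
    ring

theorem exists_small_orbit {p : ℕ} [Fact p.Prime] {F : Type*} [Field F] [Fintype F] [Algebra (ZMod p) F]
    (hF : Module.finrank (ZMod p) F ≤ 2) {G : Type*} [Group G] (g u : G) (l : F)
    (r1 : u ^ p = 1) (r2 : Commute (A g u 0) (A g u 1)) (r3 : word g u (minpoly (ZMod p) l) = 1) :
    ∃ e : (ZMod p)[X] → G, (∀ P Q, e (P + Q) = e P * e Q) ∧ e 1 = u ∧ (∀ P, g * e P * g⁻¹ = e (X * P)) ∧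
      (∀ P, e P = word g u P) ∧ (∀ P R : (ZMod p)[X], e P = 1 → e (R * P) = 1) ∧ e (minpoly (ZMod p) l) = 1 := by
  set f := minpoly (ZMod p) l with hfdef
  set S := Subgroup.closure ({A g u 0, A g u 1} : Set G)
  have h0S : A g u 0 ∈ S := Subgroup.subset_closure (Or.inl rfl)
  have h1S : A g u 1 ∈ S := Subgroup.subset_closure (Or.inr rfl)
  have hS : IsMulCommutative S := isMulCommutative_closure (by
    rintro a (rfl | rfl) b (rfl | rfl)
    exacts [Commute.refl _, r2, r2.symm, Commute.refl _])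
  have hmon : f.Monic := minpoly.monic (IsIntegral.of_finite _ _)
  have hdeg : f.natDegree = 1 ∨ f.natDegree = 2 := by
    have h1 := minpoly.natDegree_pos (A := ZMod p) (IsIntegral.of_finite (ZMod p) l)
    have h2 : f.natDegree ≤ Module.finrank (ZMod p) F := minpoly.natDegree_le l
    rw [← hfdef] at h1
    omega
  have h2S : A g u 2 ∈ S := by
    have e1 : f.coeff f.natDegree = 1 := hmon
    have : Fact (1 < p) := ⟨(Fact.out : p.Prime).one_lt⟩
    have r3' := r3
    rcases hdeg with hd | hd <;> rw [hd] at e1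
    · rw [word, hd] at r3'
      simp [List.range_succ, e1, ZMod.val_one] at r3'
      have : A g u 1 = (A g u 0 ^ (f.coeff 0).val)⁻¹ := eq_inv_of_mul_eq_one_right r3'
      rw [show (2 : ℤ) = 1 + 1 from rfl, ← A_conj_one, this, ← MulAut.conj_apply, map_inv, map_pow,
        MulAut.conj_apply]
      refine inv_mem (pow_mem ?_ _)
      rw [A_conj_one]
      exact h1S
    · rw [word, hd] at r3'
      simp [List.range_succ, e1, ZMod.val_one] at r3'
      rw [eq_inv_of_mul_eq_one_right (show (A g u 0 ^ (f.coeff 0).val * A g u 1 ^ (f.coeff 1).val) * A g u 2 = 1 by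
        simpa [mul_assoc] using r3')]
      exact inv_mem (mul_mem (pow_mem h0S _) (pow_mem h1S _))
  have hstab : S.map (MulAut.conj g).toMonoidHom ≤ S := by
    rw [MonoidHom.map_closure, Subgroup.closure_le]
    rintro _ ⟨y, rfl | rfl, rfl⟩ <;> simp only [MulEquiv.coe_toMonoidHom, MulAut.conj_apply]
    · rw [A_conj_one]; exact h1S
    · rw [A_conj_one]; exact h2S
  have hall : ∀ i : ℕ, A g u i ∈ S := by
    intro i
    induction i with
    | zero => exact h0S
    | succ i ih =>
      rw [show ((i + 1 : ℕ) : ℤ) = 1 + (i : ℤ) by push_cast; ring, ← A_conj_one]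
      exact hstab ⟨_, ih, rfl⟩
  obtain ⟨e, eadd, eone, eX, eword, emul⟩ := exists_evalHom g u r1 (commute_all g u hS hall)
  exact ⟨e, eadd, eone, eX, eword, emul, by rw [eword]; exact r3⟩

theorem conj_e {p : ℕ} [Fact p.Prime] {G : Type*} [Group G] {g u h : G} (hgh : Commute h g) (e : (ZMod p)[X] → G)
    (eadd : ∀ P Q, e (P + Q) = e P * e Q) (eX : ∀ P, g * e P * g⁻¹ = e (X * P)) (eword : ∀ P, e P = word g u P)
    (Q : (ZMod p)[X]) (hQ : h * u * h⁻¹ = e Q) (P : (ZMod p)[X]) : h * e P * h⁻¹ = e (Q * P) := by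
  rw [eword, ← MulAut.conj_apply]
  show (MulAut.conj h).toMonoidHom (word g u P) = _
  rw [map_word]
  simp only [MulEquiv.coe_toMonoidHom, MulAut.conj_apply]
  rw [hgh.eq, mul_inv_cancel_right, hQ]
  have := word_eq g (e Q) (X : (ZMod p)[X]) (fun T => e (Q * T)) (fun a b => by rw [mul_add, eadd]) (by rw [mul_one])
    (fun T => by rw [eX]; congr 1; ring) P
  rwa [aeval_X_left_apply] at this

theorem exists_large_orbit {p : ℕ} [Fact p.Prime] {G : Type*} [Group G] (g u h : G) {a n : ℕ} (Q f A' B' : (ZMod p)[X])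
    (hcomb : f = A' * (X ^ a - X - 1) + B' * (Q ^ n - 1)) (hgh : Commute h g) (r1 : u ^ p = 1)
    (r2 : Commute (A g u 0) (A g u 1)) (r3 : A g u a = A g u 0 * A g u 1) (r4 : h * u * h⁻¹ = word g u Q)
    (r5 : h ^ n = 1) :
    ∃ e : (ZMod p)[X] → G, (∀ P Q, e (P + Q) = e P * e Q) ∧ e 1 = u ∧ (∀ P, g * e P * g⁻¹ = e (X * P)) ∧
      (∀ P, e P = word g u P) ∧ (∀ P R : (ZMod p)[X], e P = 1 → e (R * P) = 1) ∧ e f = 1 := by
  have hmult := commute_multiples g u r2 r3
  have hcN : ∀ i j : ℕ, Commute (A g u i) (A g u j) := by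
    intro i j
    wlog hij : i ≤ j generalizing i j
    · exact (this j i (by omega)).symm
    obtain ⟨k, rfl⟩ := Nat.exists_eq_add_of_le hij
    have := commute_shift g u (hmult k) i
    simpa [one_mul] using this
  have hS : IsMulCommutative (Subgroup.closure (Set.range fun i : ℕ => A g u i)) :=
    isMulCommutative_closure (by rintro _ ⟨i, rfl⟩ _ ⟨j, rfl⟩; exact hcN i j)
  obtain ⟨e, eadd, eone, eX, eword, emul⟩ :=
    exists_evalHom g u r1 (commute_all g u hS fun i => Subgroup.subset_closure ⟨i, rfl⟩)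
  refine ⟨e, eadd, eone, eX, eword, emul, ?_⟩
  have hiter : ∀ (k : ℕ) P, g ^ k * e P * (g ^ k)⁻¹ = e (X ^ k * P) := by
    intro k P
    induction k with
    | zero => simp
    | succ k ih =>
      rw [pow_succ' X k, mul_assoc X, ← eX, ← ih, pow_succ']
      group
  have eXi : ∀ i : ℕ, e (X ^ i) = A g u i := fun i => by
    have := hiter i 1
    rw [mul_one, eone] at this
    rw [← this, A, zpow_natCast]
  have esub : ∀ P Q, e P = e Q → e (P - Q) = 1 := fun P Q he => by
    have := eadd (P - Q) Q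
    rw [sub_add_cancel, he] at this
    exact right_eq_mul.mp this
  have eR : e (X ^ a - X - 1) = 1 := by
    rw [sub_sub]
    refine esub _ _ ?_
    have h1 := eXi 1
    rw [pow_one, Nat.cast_one] at h1
    rw [eadd, eXi, h1, eone, r3, r2, A_zero]
  have hQk : ∀ (k : ℕ) P, h ^ k * e P * (h ^ k)⁻¹ = e (Q ^ k * P) := by
    intro k P
    induction k with
    | zero => simp
    | succ k ih =>
      rw [pow_succ' Q k, mul_assoc Q, ← conj_e hgh e eadd eX eword Q (by rw [r4, eword]), ← ih, pow_succ']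
      group
  have eQ : e (Q ^ n - 1) = 1 := by
    refine esub _ _ ?_
    have := hQk n 1
    rw [r5, one_mul, inv_one, mul_one, mul_one] at this
    exact this.symm
  rw [hcomb, eadd, emul _ A' eR, emul _ B' eQ, one_mul]

theorem adjoin_cube_generator {p : ℕ} [Fact p.Prime] {F : Type*} [Field F] [Fintype F] [Algebra (ZMod p) F]
    (hq4 : Fintype.card F ≠ 4) (μ : Fˣ) (hμ : ∀ x, x ∈ Subgroup.zpowers μ) :
    Algebra.adjoin (ZMod p) {(μ : F) ^ 3} = ⊤ := by
  classical
  set q := Fintype.card F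
  have hp2 : 2 ≤ p := (Fact.out : p.Prime).two_le
  set S := Algebra.adjoin (ZMod p) {(μ : F) ^ 3}
  by_contra hne
  let _ : Field S := (Subalgebra.isField_of_algebraic S).toField
  have htower : Module.finrank (ZMod p) S * Module.finrank S F = Module.finrank (ZMod p) F :=
    Module.finrank_mul_finrank _ _ _
  set d := Module.finrank (ZMod p) S with hd
  have hlt : d < Module.finrank (ZMod p) F := by
    refine Submodule.finrank_lt (s := Subalgebra.toSubmodule S) ?_
    rwa [Ne, Algebra.toSubmodule_eq_top]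
  have hdd : 2 * d ≤ Module.finrank (ZMod p) F := by
    rcases (show Module.finrank S F = 0 ∨ Module.finrank S F = 1 ∨ 2 ≤ Module.finrank S F by omega) with h | h | h
    · rw [h, mul_zero] at htower; omega
    · rw [h, mul_one] at htower; omega
    · rw [← htower, mul_comm 2]; exact Nat.mul_le_mul_left _ h
  let _ : Fintype S := Fintype.ofFinite S
  have hP : Fintype.card S = p ^ d := by
    rw [← Nat.card_eq_fintype_card, Module.natCard_eq_pow_finrank (K := ZMod p), Nat.card_zmod]
  have hP2 : 2 ≤ p ^ d := hP ▸ Fintype.one_lt_card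
  have hfix : ((μ : F) ^ 3) ^ (p ^ d) = (μ : F) ^ 3 := by
    rw [← hP]
    exact congrArg Subtype.val (FiniteField.pow_card (⟨_, Algebra.subset_adjoin rfl⟩ : S))
  have hord : orderOf μ = q - 1 := by
    rw [orderOf_eq_card_of_forall_mem_zpowers hμ, Nat.card_units, Nat.card_eq_fintype_card]
  have hle : q - 1 ≤ 3 * (p ^ d - 1) := by
    rw [← hord]
    refine Nat.le_of_dvd (by omega) (orderOf_dvd_of_pow_eq_one (Units.ext ?_))
    rw [Units.val_pow_eq_pow_val, Units.val_one, pow_mul]
    refine mul_right_cancel₀ (pow_ne_zero 3 μ.ne_zero) ?_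
    rw [← pow_succ, one_mul, show p ^ d - 1 + 1 = p ^ d by omega]
    exact hfix
  have h1 : p ^ d * p ^ d ≤ q := by
    rw [show q = Nat.card F from Nat.card_eq_fintype_card.symm, Module.natCard_eq_pow_finrank (K := ZMod p) (V := F),
      Nat.card_zmod, ← pow_add]
    exact Nat.pow_le_pow_right (by omega) (by omega)
  rcases (show p ^ d = 2 ∨ 3 ≤ p ^ d by omega) with h | h
  · rw [h] at h1 hle; omega
  · have := Nat.mul_le_mul_right (p ^ d) h
    omega

end Cfsg.Agent.KnownA.Pres3
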