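import Cfsg.Agent.KnownA.Pres3.Bilinear
import Cfsg.Agent.KnownA.Pres3.OrbitThree
import Cfsg.Agent.KnownA.Pres.Main

/-! A presentation of `SL₃` with four generators and fourteen relations. -/

set_option autoImplicit false
set_option linter.unusedSectionVars false

namespace Cfsg.Agent.KnownA.Pres3

open Polynomial Matrix Cfsg.Agent.KnownA.Pres
open scoped commutatorElement

universe u

variable {F : Type u} [Field F] [Fintype F]

/-- The Weyl element. -/
def W3 : SpecialLinearGroup (Fin 3) F := ⟨!![0, 1, 0; -1, 0, 0; 0, 0, 1], by simp [Matrix.det_fin_three]⟩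

/-- The cycle. -/
def C3 : SpecialLinearGroup (Fin 3) F := ⟨!![0, 0, 1; 1, 0, 0; 0, 1, 0], by simp [Matrix.det_fin_three]⟩

/-- The inverse of the Weyl element. -/
def W3inv : SpecialLinearGroup (Fin 3) F := ⟨!![0, -1, 0; 1, 0, 0; 0, 0, 1], by simp [Matrix.det_fin_three]⟩

/-- The torus. -/
def H3 (μ : Fˣ) : SpecialLinearGroup (Fin 3) F :=
  ⟨!![(μ : F), 0, 0; 0, ((μ⁻¹ : Fˣ) : F), 0; 0, 0, 1], by simp [Matrix.det_fin_three]⟩

theorem coe_W3 : ((W3 : SpecialLinearGroup (Fin 3) F) : Matrix (Fin 3) (Fin 3) F) = !![0, 1, 0; -1, 0, 0; 0, 0, 1] :=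
  rfl

theorem coe_C3 : ((C3 : SpecialLinearGroup (Fin 3) F) : Matrix (Fin 3) (Fin 3) F) = !![0, 0, 1; 1, 0, 0; 0, 1, 0] :=
  rfl

theorem coe_H3 (μ : Fˣ) : ((H3 μ : SpecialLinearGroup (Fin 3) F) : Matrix (Fin 3) (Fin 3) F) =
    !![(μ : F), 0, 0; 0, ((μ⁻¹ : Fˣ) : F), 0; 0, 0, 1] := rfl

theorem coe_W3inv : ((W3inv : SpecialLinearGroup (Fin 3) F) : Matrix (Fin 3) (Fin 3) F) =
    !![0, -1, 0; 1, 0, 0; 0, 0, 1] := rfl

/-- The root element. -/
def T01 (t : F) : SpecialLinearGroup (Fin 3) F := ⟨!![1, t, 0; 0, 1, 0; 0, 0, 1], by simp [Matrix.det_fin_three]⟩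

theorem coe_T01 (t : F) : ((T01 t : SpecialLinearGroup (Fin 3) F) : Matrix (Fin 3) (Fin 3) F) =
    !![1, t, 0; 0, 1, 0; 0, 0, 1] := rfl

theorem H3_pow (μ : Fˣ) (k : ℕ) : H3 μ ^ k = H3 (μ ^ k) := by
  induction k with
  | zero =>
    ext i j; fin_cases i <;> fin_cases j <;> simp [coe_H3]
  | succ k ih =>
    rw [pow_succ, ih, pow_succ]
    ext i j; fin_cases i <;> fin_cases j <;> simp [coe_H3, Matrix.mul_apply, Fin.sum_univ_three, mul_comm]

set_option maxHeartbeats 2000000 in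
/-- The model. -/
noncomputable def model (μ : Fˣ) (e : ℕ) (he : (μ : F) ^ e = -1) : Sys (SpecialLinearGroup (Fin 3) F) F where
  x := T01
  w := W3
  c := C3
  h := H3 μ
  μ := μ
  e := e
  add a b := by ext i j; fin_cases i <;> fin_cases j <;> simp [coe_T01, Matrix.mul_apply, Fin.sum_univ_three, add_comm]
  h_x t := by
    rw [mul_inv_eq_iff_eq_mul]
    ext i j; fin_cases i <;> fin_cases j <;>
      simp [coe_T01, coe_H3, Matrix.mul_apply, Fin.sum_univ_three] <;> field_simp
  g_x t := by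
    rw [mul_inv_eq_iff_eq_mul]
    have : (C3 : SpecialLinearGroup (Fin 3) F)⁻¹ = C3 * C3 := inv_eq_of_mul_eq_one_left (by
      ext i j; fin_cases i <;> fin_cases j <;> simp [coe_C3, Matrix.mul_apply, Fin.sum_univ_three])
    rw [this]
    ext i j; fin_cases i <;> fin_cases j <;>
      simp [coe_T01, coe_H3, coe_C3, Matrix.mul_apply, Fin.sum_univ_three] <;> field_simp
  h_comm := by
    have : (C3 : SpecialLinearGroup (Fin 3) F)⁻¹ = C3 * C3 := inv_eq_of_mul_eq_one_left (by
      ext i j; fin_cases i <;> fin_cases j <;> simp [coe_C3, Matrix.mul_apply, Fin.sum_univ_three])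
    show _ * _ = _ * _
    rw [this]
    ext i j; fin_cases i <;> fin_cases j <;> simp [coe_H3, coe_C3, Matrix.mul_apply, Fin.sum_univ_three, mul_comm]
  w_g := by
    have : (C3 : SpecialLinearGroup (Fin 3) F)⁻¹ = C3 * C3 := inv_eq_of_mul_eq_one_left (by
      ext i j; fin_cases i <;> fin_cases j <;> simp [coe_C3, Matrix.mul_apply, Fin.sum_univ_three])
    rw [mul_inv_eq_iff_eq_mul, this]
    ext i j; fin_cases i <;> fin_cases j <;> simp [coe_H3, coe_C3, coe_W3, Matrix.mul_apply, Fin.sum_univ_three]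
  mu_e := he
  w_sq := by
    rw [H3_pow]
    ext i j; fin_cases i <;> fin_cases j <;>
      simp [coe_H3, coe_W3, Matrix.mul_apply, Fin.sum_univ_three, he]
  c_cube := by ext i j; fin_cases i <;> fin_cases j <;> simp [coe_C3, Matrix.mul_apply, Fin.sum_univ_three]
  wc_sq := by
    have : (C3 : SpecialLinearGroup (Fin 3) F)⁻¹ = C3 * C3 := inv_eq_of_mul_eq_one_left (by
      ext i j; fin_cases i <;> fin_cases j <;> simp [coe_C3, Matrix.mul_apply, Fin.sum_univ_three])
    rw [conj_pow, H3_pow, this]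
    ext i j; fin_cases i <;> fin_cases j <;>
      simp [coe_H3, coe_C3, coe_W3, Matrix.mul_apply, Fin.sum_univ_three, he]
  w_eq := by
    rw [← mul_assoc, eq_comm, ← eq_mul_inv_iff_mul_eq, ← mul_assoc, mul_inv_eq_iff_eq_mul]
    have : (T01 (1 : F))⁻¹ = T01 (-1) := inv_eq_of_mul_eq_one_left (by
      ext i j; fin_cases i <;> fin_cases j <;> simp [coe_T01, Matrix.mul_apply, Fin.sum_univ_three])
    rw [this]
    ext i j; fin_cases i <;> fin_cases j <;> simp [coe_T01, coe_W3, Matrix.mul_apply, Fin.sum_univ_three]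

theorem model_X (μ : Fˣ) (e : ℕ) (he : (μ : F) ^ e = -1) (i j : Fin 3) (h : i ≠ j) (t : F) :
    (model μ e he).X i j t = SpecialLinearGroup.transvection h t := by
  have hC : (C3 : SpecialLinearGroup (Fin 3) F)⁻¹ = C3 * C3 := inv_eq_of_mul_eq_one_left (by
      ext i j; fin_cases i <;> fin_cases j <;> simp [coe_C3, Matrix.mul_apply, Fin.sum_univ_three])
  have hW : (W3 : SpecialLinearGroup (Fin 3) F)⁻¹ = W3inv :=
    inv_eq_of_mul_eq_one_left (by
      ext i j; fin_cases i <;> fin_cases j <;> simp [coe_W3, coe_W3inv, Matrix.mul_apply, Fin.sum_univ_three])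
  fin_cases i <;> fin_cases j <;> (try exact absurd rfl h)
  all_goals
    simp only [Fin.isValue, Fin.reduceFinMk, Fin.zero_eta, Fin.mk_one, Sys.X01, Sys.X10, Sys.X12, Sys.X21, Sys.X20,
      Sys.X02, model, _root_.mul_inv_rev, hC, hW]
    ext a b
    fin_cases a <;> fin_cases b <;>
      simp [coe_T01, coe_C3, coe_W3, coe_W3inv, SpecialLinearGroup.transvection_coe, Matrix.mul_apply, Fin.sum_univ_three,
        Matrix.one_apply, Matrix.single]

theorem bijective_of_sys {G : Type*} [Group G] (μ : Fˣ) (e : ℕ) (he : (μ : F) ^ e = -1)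
    (hgen : ∀ a : F, a ≠ 0 → ∃ n : ℕ, ((μ⁻¹ : Fˣ) : F) ^ n = a) (S : Sys G F) (hμ : S.μ = μ) (hb : S.Base)
    (hG : Subgroup.closure ({S.x 1, S.w, S.c, S.h} : Set G) = ⊤) (ψ : G →* SpecialLinearGroup (Fin 3) F)
    (hx : ∀ t, ψ (S.x t) = T01 t) (hw : ψ S.w = W3) (hc : ψ S.c = C3) : Function.Bijective ψ := by
  obtain ⟨s, hs, hst⟩ := S.exists_section (hμ ▸ hgen) hb hG
  have hX : ∀ i j t, ψ (S.X i j t) = (model μ e he).X i j t := by
    intro i j t
    unfold Sys.X
    split_ifs <;> simp [hx, hw, hc, model]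
  have hid : ψ.comp s = MonoidHom.id _ := by
    refine MonoidHom.ext fun z => ?_
    refine Cfsg.Agent.Linear.transvection_induction (fun z => ψ.comp s z = MonoidHom.id _ z) (fun i j h t => ?_)
      (fun a b ha hb => by rw [map_mul, ha, hb, map_mul]) z
    rw [MonoidHom.comp_apply, hst, hX, model_X μ e he i j h, MonoidHom.id_apply]
  refine ⟨fun a b hab => ?_, fun z => ⟨s z, DFunLike.congr_fun hid z⟩⟩
  obtain ⟨a, rfl⟩ := hs a
  obtain ⟨b, rfl⟩ := hs b
  have ha := DFunLike.congr_fun hid a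
  have hb := DFunLike.congr_fun hid b
  simp only [MonoidHom.comp_apply, MonoidHom.id_apply] at ha hb
  rw [← ha, ← hb, hab]

/-- The generators. -/
noncomputable def fU : FreeGroup (Fin 4) := FreeGroup.of 0

/-- The Weyl generator. -/
noncomputable def fW : FreeGroup (Fin 4) := FreeGroup.of 1

/-- The cycle generator. -/
noncomputable def fC : FreeGroup (Fin 4) := FreeGroup.of 2

/-- The torus generator. -/
noncomputable def fH : FreeGroup (Fin 4) := FreeGroup.of 3

/-- The conjugate torus generator. -/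
noncomputable def fG : FreeGroup (Fin 4) := fC * fH * fC⁻¹

/-- The relators for the torus and Weyl relations, apart from the square of the Weyl element. -/
noncomputable def coreRels (e : ℕ) : List (FreeGroup (Fin 4)) :=
  [fH * fG * (fG * fH)⁻¹, fW * fG * fW⁻¹ * (fH * fG)⁻¹, fC * fC * fC, fW * fC * (fW * fC) * (fG ^ e)⁻¹,
    fW * (fU * (fW * fU * fW⁻¹) * fU)⁻¹]

variable {p : ℕ}

/-- The commutator relators. -/
noncomputable def baseRels (P : F → (ZMod p)[X]) (B : List F) : List (FreeGroup (Fin 4)) :=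
  (B.map fun b => ⁅word fG fU (P 1), fC * word fG fU (P b) * fC⁻¹⁆ *
      (fC * fC * (fW * word fG fU (P (-b)) * fW⁻¹) * (fC * fC)⁻¹)⁻¹) ++
    (B.map fun b => ⁅word fG fU (P 1), fC * fC * (fW * word fG fU (P (-b)) * fW⁻¹) * (fC * fC)⁻¹⁆) ++
    (B.map fun b => ⁅word fG fU (P 1), fC * (fW * word fG fU (P (-b)) * fW⁻¹) * fC⁻¹⁆)

set_option maxHeartbeats 1000000 in
theorem exists_pres_of [Fact p.Prime] [Algebra (ZMod p) F] (μ : Fˣ) (e : ℕ) (he : (μ : F) ^ e = -1)
    (hgen : ∀ a : F, a ≠ 0 → ∃ n : ℕ, ((μ⁻¹ : Fˣ) : F) ^ n = a)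
    (hadj : Algebra.adjoin (ZMod p) {((μ⁻¹ : Fˣ) : F)} = ⊤)
    (P : F → (ZMod p)[X]) (hP : ∀ t, aeval ((μ⁻¹ : Fˣ) : F) (P t) = t) (B : List F) (hB : Spans ((μ : F) ^ 3) B)
    (Q : (ZMod p)[X]) (hQ : aeval ((μ⁻¹ : Fˣ) : F) Q = (μ : F) ^ 2)
    (orels : List (FreeGroup (Fin 4))) (hlen : orels.length + 3 * B.length ≤ 9)
    (hmodel : ∀ φ : FreeGroup (Fin 4) →* SpecialLinearGroup (Fin 3) F, φ fU = T01 1 → φ fW = W3 → φ fC = C3 →
      φ fH = H3 μ → φ fG = C3 * H3 μ * C3⁻¹ → ∀ r ∈ orels, φ r = 1)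
    (hder : ∀ (G : Type) [Group G] (φ : FreeGroup (Fin 4) →* G), (∀ r ∈ orels, φ r = 1) →
      Commute (φ fH) (φ fG) → φ fW = φ fU * (φ fW * φ fU * (φ fW)⁻¹) * φ fU →
      φ fW * φ fW = φ fH ^ e ∧ φ fH * φ fU * (φ fH)⁻¹ = word (φ fG) (φ fU) Q ∧
        ∃ ev : (ZMod p)[X] → G, (∀ A C, ev (A + C) = ev A * ev C) ∧ ev 1 = φ fU ∧
          (∀ A, φ fG * ev A * (φ fG)⁻¹ = ev (X * A)) ∧ (∀ A, ev A = word (φ fG) (φ fU) A) ∧
          (∀ A C : (ZMod p)[X], ev A = 1 → ev (C * A) = 1) ∧ ev (minpoly (ZMod p) ((μ⁻¹ : Fˣ) : F)) = 1) :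
    ∃ rels : Finset (FreeGroup (Fin 4)), rels.card + 1 ≤ 14 + 1 ∧
      Nonempty (PresentedGroup (↑rels : Set (FreeGroup (Fin 4))) ≃* SpecialLinearGroup (Fin 3) F) := by
  classical
  set l : F := ((μ⁻¹ : Fˣ) : F) with hl
  set rs := orels ++ coreRels e ++ baseRels P B with hrs
  have hlen' : rs.length ≤ 14 := by
    simp only [hrs, List.length_append, coreRels, baseRels, List.length_map, List.length_cons, List.length_nil]
    omega
  set φ₀ : FreeGroup (Fin 4) →* SpecialLinearGroup (Fin 3) F := FreeGroup.lift ![T01 1, W3, C3, H3 μ] with hφ₀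
  have e0 : φ₀ fU = T01 1 := by simp [φ₀, fU]
  have e1 : φ₀ fW = W3 := by simp [φ₀, fW]
  have e2 : φ₀ fC = C3 := by simp [φ₀, fC]
  have e3 : φ₀ fH = H3 μ := by simp [φ₀, fH]
  have e4 : φ₀ fG = C3 * H3 μ * C3⁻¹ := by rw [fG, map_mul, map_mul, map_inv, e2, e3]
  set M := model μ e he with hM
  have hgen' : ∀ a : F, a ≠ 0 → ∃ n : ℕ, ((M.μ⁻¹ : Fˣ) : F) ^ n = a := hgen
  have hword : ∀ t, φ₀ (word fG fU (P t)) = T01 t := fun t => by
    rw [map_word, e4, e0, word_eq (C3 * H3 μ * C3⁻¹) (T01 1) l T01 M.add rfl (fun t => M.g_x t), hP]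
  have hmodelX := model_X μ e he
  have hmod : ∀ r ∈ rs, φ₀ r = 1 := by
    intro r hr
    rcases List.mem_append.mp hr with hr | hr
    rcases List.mem_append.mp hr with hr | hr
    · exact hmodel φ₀ e0 e1 e2 e3 e4 r hr
    · simp only [coreRels, List.mem_cons, List.not_mem_nil, or_false] at hr
      rcases hr with rfl | rfl | rfl | rfl | rfl <;>
        simp only [map_mul, map_inv, map_pow, e0, e1, e2, e3, e4, mul_inv_eq_one]
      exacts [M.h_comm, M.w_g, M.c_cube, M.wc_sq, M.w_eq]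
    · simp only [baseRels, List.mem_append, List.mem_map] at hr
      have hc : ∀ i j k l : Fin 3, ∀ (h1 : i ≠ j) (h2 : k ≠ l), i ≠ l → j ≠ k → ∀ a b,
          ⁅M.X i j a, M.X k l b⁆ = 1 := fun i j k l h1 h2 h3 h4 a b => by
        rw [hmodelX i j h1, hmodelX k l h2, commutatorElement_eq_one_iff_mul_comm]
        have := (Cfsg.Agent.Suzuki.SLSt.slRels F 3).comm i j k l h1 h2 h3 h4 a b
        rwa [Cfsg.Agent.Suzuki.SLSt.slRels_x h1, Cfsg.Agent.Suzuki.SLSt.slRels_x h2] at this
      have x01 : ∀ t, M.X 0 1 t = T01 t := fun t => M.X01 t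
      have x12 : ∀ t, M.X 1 2 t = C3 * T01 t * C3⁻¹ := fun t => M.X12 t
      have x02 : ∀ t, M.X 0 2 t = C3 * C3 * (W3 * T01 (-t) * W3⁻¹) * (C3 * C3)⁻¹ := fun t => M.X02 t
      have x21 : ∀ t, M.X 2 1 t = C3 * (W3 * T01 (-t) * W3⁻¹) * C3⁻¹ := fun t => M.X21 t
      rcases hr with (⟨b, -, rfl⟩ | ⟨b, -, rfl⟩) | ⟨b, -, rfl⟩ <;>
        simp only [map_mul, map_inv, map_commutatorElement, hword, e1, e2, mul_inv_eq_one]
      · rw [← x12 b, ← x02 b, ← x01 1]
        have := (Cfsg.Agent.Suzuki.SLSt.slRels F 3).comm3 0 1 2 (by decide) (by decide) (by decide) 1 b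
        rw [Cfsg.Agent.Suzuki.SLSt.slRels_x, Cfsg.Agent.Suzuki.SLSt.slRels_x, Cfsg.Agent.Suzuki.SLSt.slRels_x,
          one_mul] at this
        rw [hmodelX 0 1 (by decide), hmodelX 1 2 (by decide), hmodelX 0 2 (by decide)]
        exact this
      · rw [← x02 b, ← x01 1]
        exact hc 0 1 0 2 (by decide) (by decide) (by decide) (by decide) 1 b
      · rw [← x21 b, ← x01 1]
        exact hc 0 1 2 1 (by decide) (by decide) (by decide) (by decide) 1 b
  refine ⟨rs.toFinset, Nat.succ_le_succ ((List.toFinset_card_le rs).trans hlen'), ?_⟩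
  have h : ∀ r ∈ (↑rs.toFinset : Set (FreeGroup (Fin 4))), φ₀ r = 1 := fun r hr =>
    hmod r (List.mem_toFinset.mp (Finset.mem_coe.mp hr))
  set ψ := PresentedGroup.toGroup (f := ![T01 1, W3, C3, H3 μ]) h with hψ
  let φ := PresentedGroup.mk (↑rs.toFinset : Set (FreeGroup (Fin 4)))
  have hrel : ∀ r ∈ rs, φ r = 1 := fun r hr =>
    PresentedGroup.one_of_mem (Finset.mem_coe.mpr (List.mem_toFinset.mpr hr))
  have hψφ : ∀ r, ψ (φ r) = φ₀ r := fun r => rfl
  have hc : ∀ r ∈ coreRels e, φ r = 1 := fun r hr =>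
    hrel r (List.mem_append_left _ (List.mem_append_right _ hr))
  simp only [coreRels, List.mem_cons, List.not_mem_nil, or_false, forall_eq_or_imp, forall_eq] at hc
  obtain ⟨c1, c2, c3, c4, c5⟩ := hc
  simp only [map_mul, map_inv, map_pow, mul_inv_eq_one] at c1 c2 c3 c4 c5
  obtain ⟨hww, hhu, ev, eadd, eone, eX, eword, emul, emin⟩ := hder _ φ
    (fun r hr => hrel r (List.mem_append_left _ (List.mem_append_left _ hr))) c1 c5
  obtain ⟨x, hadd, hx1, hconj, hx⟩ := exists_x (φ fG) (φ fU) l hadj ev eadd eone eX emul emin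
  have hfG : φ fG = φ fC * φ fH * (φ fC)⁻¹ := by rw [fG, map_mul, map_mul, map_inv]
  rw [hfG] at c1 c2 c4
  let S : Sys (PresentedGroup (↑rs.toFinset : Set (FreeGroup (Fin 4)))) F :=
    { x := x
      w := φ fW
      c := φ fC
      h := φ fH
      μ := μ
      e := e
      add := hadd
      h_x := fun t => by
        obtain ⟨A, rfl⟩ : ∃ A, aeval l A = t := ⟨P t, hP t⟩
        have hcomm : Commute (φ fH) (φ fG) := by rw [hfG]; exact c1
        rw [← hx, conj_e hcomm ev eadd eX eword Q (hhu.trans (eword Q).symm), hx, map_mul, hQ]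
      g_x := fun t => by rw [← hfG]; exact hconj t
      h_comm := c1
      w_g := c2
      mu_e := he
      w_sq := hww
      c_cube := c3
      wc_sq := c4
      w_eq := by rw [hx1]; exact c5 }
  have hw' : ∀ t, word (φ fG) (φ fU) (P t) = x t := fun t => by rw [← eword, hx, hP]
  have hbase : S.Base := by
    refine ⟨B, B, B, hB, hB, hB, fun b hb => ?_, fun b hb => ?_, fun b hb => ?_⟩
    · have := hrel _ (List.mem_append_right _ (List.mem_append_left _ (List.mem_append_left _ (List.mem_map_of_mem hb))))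
      simp only [map_mul, map_inv, map_commutatorElement, map_word, hw', mul_inv_eq_one] at this
      rw [S.X01, S.X12, S.X02]
      exact this
    · have := hrel _ (List.mem_append_right _ (List.mem_append_left _ (List.mem_append_right _ (List.mem_map_of_mem hb))))
      simp only [map_mul, map_inv, map_commutatorElement, map_word, hw'] at this
      rw [S.X01, S.X02]
      exact commutatorElement_eq_one_iff_mul_comm.mp this
    · have := hrel _ (List.mem_append_right _ (List.mem_append_right _ (List.mem_map_of_mem hb)))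
      simp only [map_mul, map_inv, map_commutatorElement, map_word, hw'] at this
      rw [S.X01, S.X21]
      exact commutatorElement_eq_one_iff_mul_comm.mp this
  refine ⟨MulEquiv.ofBijective ψ (bijective_of_sys μ e he hgen S rfl hbase ?_ ψ (fun t => ?_) ?_ ?_)⟩
  · rw [eq_top_iff, ← PresentedGroup.closure_range_of, Subgroup.closure_le]
    rintro _ ⟨i, rfl⟩
    refine Subgroup.subset_closure ?_
    fin_cases i
    · exact Or.inl hx1.symm
    · exact Or.inr (Or.inl rfl)
    · exact Or.inr (Or.inr (Or.inl rfl))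
    · exact Or.inr (Or.inr (Or.inr rfl))
  · show ψ (x t) = _
    refine psi_x ψ l hadj (φ fU) (φ fG) x (fun A => by rw [← eword, hx]) T01 M.add ?_ ?_ t
    · rw [hψφ, e0]
    · intro t; rw [hψφ, e4]; exact M.g_x t
  · exact (hψφ fW).trans e1
  · exact (hψφ fC).trans e2

theorem zmod_two_cases : ∀ c : ZMod 2, c = 0 ∨ c = 1 := by decide

theorem T01_add (a b : F) : T01 (a + b) = T01 a * T01 b := by
  ext i j; fin_cases i <;> fin_cases j <;> simp [coe_T01, Matrix.mul_apply, Fin.sum_univ_three, add_comm]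

theorem T01_zero : T01 (0 : F) = 1 := by
  ext i j; fin_cases i <;> fin_cases j <;> simp [coe_T01]

theorem T01_pow (t : F) (k : ℕ) : T01 t ^ k = T01 ((k : F) * t) := by
  induction k with
  | zero => simp [T01_zero]
  | succ k ih => rw [pow_succ, ih, ← T01_add, Nat.cast_succ, add_mul, one_mul]

theorem T01_comm (a b : F) : T01 a * T01 b = T01 b * T01 a := by rw [← T01_add, ← T01_add, add_comm]

theorem model_A (μ : Fˣ) (e : ℕ) (he : (μ : F) ^ e = -1) (i : ℕ) :
    A (C3 * H3 μ * C3⁻¹) (T01 (1 : F)) (i : ℤ) = T01 (((μ⁻¹ : Fˣ) : F) ^ i) := by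
  rw [A, zpow_natCast, Sys.conj_pow_eq (a := C3 * H3 μ * C3⁻¹) (κ := ((μ⁻¹ : Fˣ) : F)) (f := T01) (fun t => (model μ e he).g_x t), mul_one]

theorem sl_three_pres :
    ∃ rels : Finset (FreeGroup (Fin 4)), rels.card ≤ 14 ∧
      Nonempty (PresentedGroup (↑rels : Set (FreeGroup (Fin 4))) ≃* SpecialLinearGroup (Fin 3) F) := by
  classical
  obtain ⟨p, hchar⟩ := CharP.exists F
  obtain ⟨f, hpp, hqf⟩ := FiniteField.card F p
  have : Fact p.Prime := ⟨hpp⟩
  let _ : Algebra (ZMod p) F := ZMod.algebra F p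
  obtain ⟨μ, hμ⟩ := IsCyclic.exists_generator (α := Fˣ)
  set q := Fintype.card F with hq
  have hq2 : 2 ≤ q := Fintype.one_lt_card
  set l : F := ((μ⁻¹ : Fˣ) : F) with hl
  have hgen : ∀ a : F, a ≠ 0 → ∃ n : ℕ, l ^ n = a := by
    intro a ha
    obtain ⟨k, hk⟩ := mem_powers_iff_mem_zpowers.mpr (hμ (Units.mk0 a ha)⁻¹)
    have hk' : μ ^ k = (Units.mk0 a ha)⁻¹ := hk
    exact ⟨k, by rw [hl, ← Units.val_pow_eq_pow_val, inv_pow, hk', inv_inv, Units.val_mk0]⟩
  have hadj : Algebra.adjoin (ZMod p) {l} = ⊤ := by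
    rw [eq_top_iff]
    intro t _
    by_cases ht : t = 0
    · subst ht; exact zero_mem _
    · obtain ⟨i, rfl⟩ := hgen t ht
      exact pow_mem (Algebra.subset_adjoin (Set.mem_singleton l)) i
  have hsurj : ∀ t : F, ∃ A : (ZMod p)[X], aeval l A = t := fun t => by
    have : t ∈ Algebra.adjoin (ZMod p) ({l} : Set F) := by rw [hadj]; trivial
    rwa [Algebra.adjoin_singleton_eq_range_aeval] at this
  choose P hP using hsurj
  obtain ⟨e, he, he2⟩ : ∃ e, (μ : F) ^ e = -1 ∧ (p = 2 → e = 0) := by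
    by_cases hp : p = 2
    · subst hp
      exact ⟨0, by rw [pow_zero, CharTwo.neg_eq], fun _ => rfl⟩
    · obtain ⟨k, hk⟩ := mem_powers_iff_mem_zpowers.mpr (hμ (-1))
      have hk' : μ ^ k = -1 := hk
      exact ⟨k, by rw [← Units.val_pow_eq_pow_val, hk']; rfl, fun h => absurd h hp⟩
  suffices H : ∃ rels : Finset (FreeGroup (Fin 4)), rels.card + 1 ≤ 14 + 1 ∧
      Nonempty (PresentedGroup (↑rels : Set (FreeGroup (Fin 4))) ≃* SpecialLinearGroup (Fin 3) F) by
    obtain ⟨rels, h1, h2⟩ := H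
    exact ⟨rels, Nat.le_of_succ_le_succ h1, h2⟩
  by_cases hq4 : q = 4
  · -- four elements
    have hp2 : p = 2 := by
      rw [hq4] at hqf
      have h2 : 2 ∣ p ^ (f : ℕ) := ⟨2, hqf.symm⟩
      exact ((Nat.prime_dvd_prime_iff_eq Nat.prime_two hpp).mp (Nat.prime_two.dvd_of_dvd_pow h2)).symm
    subst hp2
    have he0 := he2 rfl
    subst he0
    have hl3 : l ^ 3 = 1 := by
      have := FiniteField.pow_card_sub_one_eq_one l (Units.ne_zero _)
      rwa [← hq, hq4] at this
    have hl1 : l ≠ 1 := by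
      intro h
      obtain ⟨a, ha0, ha1⟩ : ∃ a : F, a ≠ 0 ∧ a ≠ 1 := by
        by_contra hh
        push Not at hh
        have : (Finset.univ : Finset F) ⊆ {0, 1} := fun a _ => by
          by_cases ha : a = 0
          · simp [ha]
          · simp [hh a ha]
        have := (Finset.card_le_card this).trans Finset.card_le_two
        rw [Finset.card_univ, ← hq, hq4] at this
        omega
      obtain ⟨n, hn⟩ := hgen a ha0
      exact ha1 (by rw [← hn, h, one_pow])
    have hl2 : l ^ 2 + l + 1 = 0 := by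
      have : (l - 1) * (l ^ 2 + l + 1) = 0 := by linear_combination hl3
      exact (mul_eq_zero.mp this).resolve_left (sub_ne_zero.mpr hl1)
    have hμl : (μ : F) ^ 2 = l := by
      have h1 : (μ : F) * l = 1 := by rw [hl, ← Units.val_mul, mul_inv_cancel, Units.val_one]
      linear_combination (-(μ : F) ^ 2) * hl3 + ((μ : F) * l + 1) * l * h1
    have hmin : minpoly (ZMod 2) l = X ^ 2 - X - 1 := by
      have hint : IsIntegral (ZMod 2) l := IsIntegral.of_finite _ _
      have hdvd : minpoly (ZMod 2) l ∣ X ^ 2 - X - 1 := minpoly.dvd _ _ (by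
        simp only [map_sub, map_pow, aeval_X, map_one]
        linear_combination hl2 + (-l - 1) * CharTwo.two_eq_zero (R := F))
      have hdeg : (X ^ 2 - X - 1 : (ZMod 2)[X]).natDegree = 2 := by compute_degree!
      have hmon : (X ^ 2 - X - 1 : (ZMod 2)[X]).Monic := by monicity!
      refine (eq_of_monic_of_dvd_of_natDegree_le (minpoly.monic hint) hmon hdvd ?_).symm
      rw [hdeg]
      have h1 := minpoly.natDegree_pos hint
      by_contra h2
      have h3 : (minpoly (ZMod 2) l).natDegree = 1 := by omega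
      obtain ⟨c, hc⟩ := minpoly.natDegree_eq_one_iff.mp h3
      rw [← hc] at hl3 hl1
      rcases zmod_two_cases c with rfl | rfl
      · simp at hl3
      · simp at hl1
    have hcube : (μ : F) ^ 3 = 1 := by
      have := FiniteField.pow_card_sub_one_eq_one (μ : F) μ.ne_zero
      rwa [← hq, hq4] at this
    have hμ1 : (μ : F) ≠ 1 := fun h => hl1 (by rw [hl, Units.val_inv_eq_inv_val, h, inv_one])
    have hspan : Spans ((μ : F) ^ 3) [1, (μ : F)] := by
      intro T h0 hadd _ hB t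
      have h1 : T 1 := hB 1 (by simp)
      have h2 : T (μ : F) := hB _ (by simp)
      have huniv : ({0, 1, (μ : F), 1 + (μ : F)} : Finset F) = Finset.univ := by
        refine Finset.eq_univ_of_card _ ?_
        rw [← hq, hq4]
        have hne1 : (1 : F) + μ ≠ 0 := fun h => hμ1 (by rw [eq_neg_of_add_eq_zero_right h, CharTwo.neg_eq])
        simp [Finset.card_insert_of_notMem, hμ1.symm, hne1.symm, μ.ne_zero.symm, μ.ne_zero, hμ1]
      have := huniv ▸ Finset.mem_univ t
      simp only [Finset.mem_insert, Finset.mem_singleton] at this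
      rcases this with rfl | rfl | rfl | rfl
      exacts [h0, h1, h2, hadd _ _ h1 h2]
    refine exists_pres_of μ 0 he hgen hadj P hP [1, (μ : F)] hspan X (by rw [aeval_X]; exact hμl.symm)
      [fU * fU, A fG fU ((2 : ℕ) : ℤ) * (A fG fU ((0 : ℕ) : ℤ) * A fG fU ((1 : ℕ) : ℤ))⁻¹,
        fH * fU * fH⁻¹ * (word fG fU (X : (ZMod 2)[X]))⁻¹]
      (by simp) ?_ ?_
    · intro φ e0 e1 e2 e3 e4 r hr
      simp only [List.mem_cons, List.not_mem_nil, or_false] at hr
      rcases hr with rfl | rfl | rfl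
      · rw [map_mul, e0, ← T01_add, CharTwo.add_self_eq_zero, T01_zero]
      · rw [map_mul, map_inv, mul_inv_eq_one, map_mul, map_A, map_A, map_A, e0, e4, model_A μ 0 he,
          model_A μ 0 he, model_A μ 0 he, ← T01_add, pow_zero, pow_one]
        congr 1
        linear_combination hl2 + (-l - 1) * CharTwo.two_eq_zero (R := F)
      · rw [map_mul, map_inv, mul_inv_eq_one, map_mul, map_mul, map_inv, map_word, e0, e3, e4,
          word_eq (C3 * H3 μ * C3⁻¹) (T01 1) l T01 T01_add rfl (fun t => (model μ 0 he).g_x t), aeval_X]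
        refine ((model μ 0 he).h_x 1).trans ?_
        rw [mul_one]
        exact congrArg T01 hμl
    · intro G _ φ hrel hcomm c5
      simp only [List.mem_cons, List.not_mem_nil, or_false, forall_eq_or_imp, forall_eq] at hrel
      obtain ⟨r1, r3, r4⟩ := hrel
      rw [map_mul] at r1
      rw [map_mul, map_inv, mul_inv_eq_one, map_mul, map_A, map_A, map_A] at r3
      rw [map_mul, map_inv, mul_inv_eq_one, map_mul, map_mul, map_inv, map_word] at r4
      set u := φ fU
      set w := φ fW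
      set g := φ fG
      have hAA : ∀ i : ℤ, A g u i * A g u i = 1 := fun i => by
        simp only [A]
        calc g ^ i * u * (g ^ i)⁻¹ * (g ^ i * u * (g ^ i)⁻¹) = g ^ i * (u * u) * (g ^ i)⁻¹ := by group
          _ = 1 := by rw [r1, mul_one, mul_inv_cancel]
      have r2 : Commute (A g u 0) (A g u 1) := by
        have h := hAA ((2 : ℕ) : ℤ)
        rw [r3] at h
        show A g u 0 * A g u 1 = A g u 1 * A g u 0
        have i0 : (A g u 0)⁻¹ = A g u 0 := inv_eq_of_mul_eq_one_right (hAA 0)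
        have i1 : (A g u 1)⁻¹ = A g u 1 := inv_eq_of_mul_eq_one_right (hAA 1)
        rw [Nat.cast_zero, Nat.cast_one, mul_eq_one_iff_eq_inv, _root_.mul_inv_rev, i0, i1] at h
        exact h
      have hu : u⁻¹ = u := inv_eq_of_mul_eq_one_right r1
      refine ⟨?_, r4, ?_⟩
      · rw [pow_zero]
        calc w * w = u * (w * u * w⁻¹) * u * (u * (w * u * w⁻¹) * u) := by rw [← c5]
          _ = u * (w * (u * u) * w⁻¹) * u := by
            calc _ = u * (w * u * w⁻¹) * (u * u) * (w * u * w⁻¹) * u := by group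
              _ = u * (w * u * w⁻¹) * (w * u * w⁻¹) * u := by rw [r1, mul_one]
              _ = _ := by group
          _ = 1 := by rw [r1, mul_one, mul_inv_cancel, mul_one, r1]
      · rw [hmin]
        exact exists_large_orbit g u (φ fH) (a := 2) (n := 0) X _ 1 0 (by simp) hcomm
          (by rw [pow_two]; exact r1) r2 (by simpa using r3) r4 (pow_zero _)
  have hμq : μ ^ (q - 1) = 1 := by
    refine Units.ext ?_
    rw [Units.val_pow_eq_pow_val, Units.val_one]
    exact FiniteField.pow_card_sub_one_eq_one (μ : F) μ.ne_zero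
  have hspan : Spans ((μ : F) ^ 3) [(1 : F)] :=
    spans_of_adjoin one_ne_zero (adjoin_cube_generator (p := p) hq4 μ hμ)
  have hlu : ∀ t, C3 * H3 μ * C3⁻¹ * T01 t * (C3 * H3 μ * C3⁻¹)⁻¹ = T01 (l * t) := fun t => (model μ e he).g_x t
  have hword : ∀ A : (ZMod p)[X], word (C3 * H3 μ * C3⁻¹) (T01 1) A = T01 (aeval l A) := fun A =>
    word_eq _ _ l T01 T01_add rfl hlu A
  have hpu : T01 (1 : F) ^ p = 1 := by rw [T01_pow, CharP.cast_eq_zero, zero_mul, T01_zero]
  by_cases hF : Module.finrank (ZMod p) F ≤ 2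
  · refine exists_pres_of μ e he hgen hadj P hP [1] hspan (P ((μ : F) ^ 2)) (hP _)
      [fU ^ p, A fG fU ((0 : ℕ) : ℤ) * A fG fU ((1 : ℕ) : ℤ) * (A fG fU ((1 : ℕ) : ℤ) * A fG fU ((0 : ℕ) : ℤ))⁻¹, word fG fU (minpoly (ZMod p) l),
        fH * fU * fH⁻¹ * (word fG fU (P ((μ : F) ^ 2)))⁻¹, fW * fW * (fH ^ e)⁻¹]
      (by simp) ?_ ?_
    · intro φ e0 e1 e2 e3 e4 r hr
      simp only [List.mem_cons, List.not_mem_nil, or_false] at hr
      rcases hr with rfl | rfl | rfl | rfl | rfl
      · rw [map_pow, e0, hpu]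
      · rw [map_mul, map_inv, mul_inv_eq_one, map_mul, map_mul, map_A, map_A, e0, e4,
          model_A μ e he, model_A μ e he, T01_comm]
      · rw [map_word, e0, e4, hword, minpoly.aeval, T01_zero]
      · rw [map_mul, map_inv, mul_inv_eq_one, map_mul, map_mul, map_inv, map_word, e0, e3, e4, hword, hP]
        refine ((model μ e he).h_x 1).trans ?_
        rw [mul_one]
        rfl
      · rw [map_mul, map_inv, mul_inv_eq_one, map_mul, map_pow, e1, e3]
        exact (model μ e he).w_sq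
    · intro G _ φ hrel hcomm c5
      simp only [List.mem_cons, List.not_mem_nil, or_false, forall_eq_or_imp, forall_eq] at hrel
      obtain ⟨r1, r2, r3, r4, r5⟩ := hrel
      rw [map_pow] at r1
      rw [map_mul, map_inv, mul_inv_eq_one, map_mul, map_mul, map_A, map_A] at r2
      rw [map_word] at r3
      rw [map_mul, map_inv, mul_inv_eq_one, map_mul, map_mul, map_inv, map_word] at r4
      rw [map_mul, map_inv, mul_inv_eq_one, map_mul, map_pow] at r5
      exact ⟨r5, r4, exists_small_orbit hF _ _ l r1 (by simpa [Commute, SemiconjBy] using r2) r3⟩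
  have h1l : (1 : F) + l ≠ 0 := by
    intro h
    have hl1 : l ∈ (⊥ : Subalgebra (ZMod p) F) := by
      rw [eq_neg_of_add_eq_zero_right h]; exact neg_mem (one_mem _)
    have htop : (⊤ : Subalgebra (ZMod p) F) = ⊥ := by
      rw [← hadj, eq_bot_iff, Algebra.adjoin_le_iff, Set.singleton_subset_iff]
      exact hl1
    have := Subalgebra.bot_eq_top_iff_finrank_eq_one.mp htop.symm
    omega
  obtain ⟨k, hk⟩ := hgen (1 + l) h1l
  have hla : l ^ (q * k) = 1 + l := by rw [mul_comm, pow_mul, hk, hq, FiniteField.pow_card]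
  have hpa : p ∣ q * k := by
    refine Dvd.dvd.mul_right ?_ k
    rw [hqf]
    exact dvd_pow_self p f.ne_zero
  obtain ⟨Q, hQ, hkill⟩ := exists_kill l hpa hla ((μ : F) ^ 2) hadj
  obtain ⟨A', B', hcomb⟩ := hkill (q - 1) (by omega)
  refine exists_pres_of μ e he hgen hadj P hP [1] hspan Q hQ
    [fU ^ p, A fG fU ((0 : ℕ) : ℤ) * A fG fU ((1 : ℕ) : ℤ) * (A fG fU ((1 : ℕ) : ℤ) * A fG fU ((0 : ℕ) : ℤ))⁻¹,
      A fG fU ((q * k : ℕ) : ℤ) * (A fG fU ((0 : ℕ) : ℤ) * A fG fU ((1 : ℕ) : ℤ))⁻¹,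
      fH * fU * fH⁻¹ * (word fG fU Q)⁻¹, fH ^ (q - 1), fW * fW * (fH ^ e)⁻¹]
    (by simp) ?_ ?_
  · intro φ e0 e1 e2 e3 e4 r hr
    simp only [List.mem_cons, List.not_mem_nil, or_false] at hr
    rcases hr with rfl | rfl | rfl | rfl | rfl | rfl
    · rw [map_pow, e0, hpu]
    · rw [map_mul, map_inv, mul_inv_eq_one, map_mul, map_mul, map_A, map_A, e0, e4,
        model_A μ e he, model_A μ e he, T01_comm]
    · rw [map_mul, map_inv, mul_inv_eq_one, map_mul, map_A, map_A, map_A, e0, e4,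
        model_A μ e he, model_A μ e he, model_A μ e he, ← T01_add, pow_zero, pow_one]
      exact congrArg T01 hla
    · rw [map_mul, map_inv, mul_inv_eq_one, map_mul, map_mul, map_inv, map_word, e0, e3, e4, hword, hQ]
      refine ((model μ e he).h_x 1).trans ?_
      rw [mul_one]
      rfl
    · rw [map_pow, e3, H3_pow, hμq]
      ext i j; fin_cases i <;> fin_cases j <;> simp [coe_H3]
    · rw [map_mul, map_inv, mul_inv_eq_one, map_mul, map_pow, e1, e3]
      exact (model μ e he).w_sq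
  · intro G _ φ hrel hcomm c5
    simp only [List.mem_cons, List.not_mem_nil, or_false, forall_eq_or_imp, forall_eq] at hrel
    obtain ⟨r1, r2, r3, r4, r5, r6⟩ := hrel
    rw [map_pow] at r1 r5
    rw [map_mul, map_inv, mul_inv_eq_one, map_mul, map_mul, map_A, map_A] at r2
    rw [map_mul, map_inv, mul_inv_eq_one, map_mul, map_A, map_A, map_A] at r3
    rw [map_mul, map_inv, mul_inv_eq_one, map_mul, map_mul, map_inv, map_word] at r4
    rw [map_mul, map_inv, mul_inv_eq_one, map_mul, map_pow] at r6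
    exact ⟨r6, r4, exists_large_orbit _ _ (φ fH) Q _ A' B' hcomb hcomm r1 (by simpa [Commute, SemiconjBy] using r2) (by simpa using r3) r4 r5⟩

end Cfsg.Agent.KnownA.Pres3
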