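import Cfsg.Agent.KnownA.Pres3.Derive

/-! The commutator relations from single instances. -/

set_option autoImplicit false
set_option linter.unusedSectionVars false

namespace Cfsg.Agent.KnownA.Pres3.Sys

open scoped commutatorElement

variable {G : Type*} [Group G] {F : Type*} [Field F] (S : Sys G F)

theorem X_add (i j : Fin 3) (a b : F) : S.X i j (a + b) = S.X i j a * S.X i j b := by
  unfold X
  split_ifs
  · rw [one_mul]
  · rw [S.add]; group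
  · rw [neg_add, S.add]; group

theorem X_zero (i j : Fin 3) : S.X i j 0 = 1 := by
  have := S.X_add i j 0 0
  rw [add_zero] at this
  exact left_eq_mul.mp this

theorem conj_comm {p q a b : G} (hpq : Commute p q) (a' b' : G) (ha : a * p * a⁻¹ = a') (hb : b = a)
    (hq : b * q * b⁻¹ = b') : Commute a' b' := by
  rw [← ha, ← hq, hb, ← MulAut.conj_apply, ← MulAut.conj_apply]
  exact hpq.map _

/-- A torus invariant family of commuting root elements. -/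
theorem comm_fill [Fintype F] {i j k l : Fin 3}
    {u₁ v₁ u₂ v₂ : F} (hv : v₁ ≠ 0) (hv2 : v₂ ≠ 0)
    (hu₁ : ((S.χ i * (S.χ j)⁻¹ : Fˣ) : F) = u₁) (hv₁ : ((S.χ k * (S.χ l)⁻¹ : Fˣ) : F) = v₁)
    (hu₂ : ((S.χ (i - 1) * (S.χ (j - 1))⁻¹ : Fˣ) : F) = u₂) (hv₂ : ((S.χ (k - 1) * (S.χ (l - 1))⁻¹ : Fˣ) : F) = v₂)
    (hu : u₁ * (u₂ * u₂) = 1) {m : F} (hm : v₁ * (v₂ * v₂) = m)
    (hl : ∀ a : F, a ≠ 0 → ∃ n : ℕ, u₂ ^ n = a) {B : List F} (hB : Spans m B)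
    (hbase : ∀ b ∈ B, Commute (S.X i j 1) (S.X k l b)) : ∀ a b, Commute (S.X i j a) (S.X k l b) := by
  have h1 : ∀ a b, Commute (S.X i j a) (S.X k l b) → Commute (S.X i j (u₁ * a)) (S.X k l (v₁ * b)) :=
    fun a b h => conj_comm h _ _ (by rw [S.h_X, hu₁]) rfl (by rw [S.h_X, hv₁])
  have h2 : ∀ a b, Commute (S.X i j a) (S.X k l b) → Commute (S.X i j (u₂ * a)) (S.X k l (v₂ * b)) :=
    fun a b h => conj_comm h _ _ (by rw [S.g_X, hu₂]) rfl (by rw [S.g_X, hv₂])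
  refine fill (fun b => by rw [S.X_zero]; exact Commute.one_left _) (fun a => by rw [S.X_zero]; exact Commute.one_right _)
    (fun a b b' h h' => by rw [S.X_add]; exact h.mul_right h') hv2 h2 (m := m) (fun a b h => ?_) hl hB hbase
  have := h1 _ _ (h2 _ _ (h2 _ _ h))
  rwa [← mul_assoc u₂, ← mul_assoc u₁, hu, one_mul, ← mul_assoc v₂, ← mul_assoc v₁, hm] at this

theorem chi0 : S.χ 0 = S.μ := rfl
theorem chi1 : S.χ 1 = S.μ⁻¹ := rfl
theorem chi2 : S.χ 2 = 1 := rfl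

/-- Rows, columns and the composable pairs, from single instances. -/
structure Base (S : Sys G F) : Prop where
  ex : ∃ A R C : List F, Spans ((S.μ : F) ^ 3) A ∧ Spans ((S.μ : F) ^ 3) R ∧ Spans ((S.μ : F) ^ 3) C ∧
    (∀ b ∈ A, ⁅S.X 0 1 1, S.X 1 2 b⁆ = S.X 0 2 b) ∧ (∀ b ∈ R, Commute (S.X 0 1 1) (S.X 0 2 b)) ∧
    (∀ b ∈ C, Commute (S.X 0 1 1) (S.X 2 1 b))

variable [Fintype F] (hgen : ∀ a : F, a ≠ 0 → ∃ n : ℕ, ((S.μ⁻¹ : Fˣ) : F) ^ n = a)

include hgen in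
theorem row (hb : S.Base) : ∀ a b, Commute (S.X 0 1 a) (S.X 0 2 b) := by
  obtain ⟨A, R, C, hA, hR, hC, h1, h2, h3⟩ := hb.ex
  have hμ : (S.μ : F) ≠ 0 := S.μ.ne_zero
  refine S.comm_fill (u₁ := (S.μ : F) ^ 2) (v₁ := (S.μ : F)) (u₂ := ((S.μ⁻¹ : Fˣ) : F)) (v₂ := (S.μ : F)) hμ hμ
    ?_ ?_ ?_ ?_ ?_ (m := (S.μ : F) ^ 3) (by ring) hgen hR h2
  all_goals simp [show (0 : Fin 3) - 1 = 2 from rfl, show (2 : Fin 3) - 1 = 1 from rfl, chi0, chi1, chi2, pow_two]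
  all_goals field_simp

include hgen in
theorem col (hb : S.Base) : ∀ a b, Commute (S.X 0 1 a) (S.X 2 1 b) := by
  obtain ⟨A, R, C, hA, hR, hC, h1, h2, h3⟩ := hb.ex
  have hμ : (S.μ : F) ≠ 0 := S.μ.ne_zero
  refine S.comm_fill (u₁ := (S.μ : F) ^ 2) (v₁ := (S.μ : F)) (u₂ := ((S.μ⁻¹ : Fˣ) : F))
    (v₂ := (((S.μ : F)) ^ 2)⁻¹) hμ (inv_ne_zero (pow_ne_zero 2 hμ))
    ?_ ?_ ?_ ?_ ?_ (m := ((S.μ : F) ^ 3)⁻¹) (by field_simp) hgen (spans_inv hC) h3
  all_goals simp [show (0 : Fin 3) - 1 = 2 from rfl, show (2 : Fin 3) - 1 = 1 from rfl, chi0, chi1, chi2, pow_two]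
  all_goals field_simp

theorem comm_c {i j k l : Fin 3} (h : ∀ a b, Commute (S.X i j a) (S.X k l b)) :
    ∀ a b, Commute (S.X (i + 1) (j + 1) a) (S.X (k + 1) (l + 1) b) := fun a b =>
  conj_comm (h a b) _ _ (S.c_X i j a) rfl (S.c_X k l b)

theorem self_comm (i j : Fin 3) (a b : F) : Commute (S.X i j a) (S.X i j b) := by
  show _ * _ = _ * _
  rw [← S.X_add, ← S.X_add, add_comm]

include hgen in
theorem all_comm (hb : S.Base) : ∀ i j k l : Fin 3, i ≠ j → k ≠ l → i ≠ l → j ≠ k →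
    ∀ a b, Commute (S.X i j a) (S.X k l b) := by
  have r0 := S.row hgen hb
  have r1 : ∀ a b, Commute (S.X 1 2 a) (S.X 1 0 b) := S.comm_c r0
  have r2 : ∀ a b, Commute (S.X 2 0 a) (S.X 2 1 b) := S.comm_c r1
  have c0 := S.col hgen hb
  have c1 : ∀ a b, Commute (S.X 1 2 a) (S.X 0 2 b) := S.comm_c c0
  have c2 : ∀ a b, Commute (S.X 2 0 a) (S.X 1 0 b) := S.comm_c c1
  intro i j k l h1 h2 h3 h4 a b
  fin_cases i <;> fin_cases j <;> first | exact absurd rfl h1 | skip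
  all_goals fin_cases k <;> fin_cases l <;> first
    | exact absurd rfl h2 | exact absurd rfl h3 | exact absurd rfl h4 | exact S.self_comm _ _ a b
    | exact r0 a b | exact (r0 b a).symm | exact r1 a b | exact (r1 b a).symm | exact r2 a b | exact (r2 b a).symm
    | exact c0 a b | exact (c0 b a).symm | exact c1 a b | exact (c1 b a).symm | exact c2 a b | exact (c2 b a).symm

include hgen in
theorem comp0 (hb : S.Base) : ∀ a b, ⁅S.X 0 1 a, S.X 1 2 b⁆ = S.X 0 2 (a * b) := by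
  obtain ⟨A, R, C, hA, hR, hC, h1, h2, h3⟩ := hb.ex
  have hμ : (S.μ : F) ≠ 0 := S.μ.ne_zero
  have hx : ∀ a : G, ∀ p q : G, ⁅a * p * a⁻¹, a * q * a⁻¹⁆ = a * ⁅p, q⁆ * a⁻¹ := fun a p q => by
    simp only [commutatorElement_def]; group
  have hh : ∀ a b, ⁅S.X 0 1 a, S.X 1 2 b⁆ = S.X 0 2 (a * b) →
      ⁅S.X 0 1 ((S.μ : F) ^ 2 * a), S.X 1 2 ((S.μ : F)⁻¹ * b)⁆ = S.X 0 2 ((S.μ : F) ^ 2 * a * ((S.μ : F)⁻¹ * b)) := by
    intro a b h
    have e := congrArg (fun y => S.h * y * S.h⁻¹) h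
    simp only [← hx, S.h_X, chi0, chi1, chi2] at e
    convert e using 2 <;> simp <;> field_simp
  have hg : ∀ a b, ⁅S.X 0 1 a, S.X 1 2 b⁆ = S.X 0 2 (a * b) →
      ⁅S.X 0 1 ((S.μ : F)⁻¹ * a), S.X 1 2 ((S.μ : F) ^ 2 * b)⁆ = S.X 0 2 ((S.μ : F)⁻¹ * a * ((S.μ : F) ^ 2 * b)) := by
    intro a b h
    have e := congrArg (fun y => S.g * y * S.g⁻¹) h
    simp only [← hx, S.g_X, show (0 : Fin 3) - 1 = 2 from rfl, show (1 : Fin 3) - 1 = 0 from rfl,
      show (2 : Fin 3) - 1 = 1 from rfl, chi0, chi1, chi2] at e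
    convert e using 2 <;> simp <;> field_simp
  have hc := S.all_comm hgen hb 1 2 0 2 (by decide) (by decide) (by decide) (by decide)
  refine fill (S := fun a b => ⁅S.X 0 1 a, S.X 1 2 b⁆ = S.X 0 2 (a * b))
    (fun b => by simp [S.X_zero]) (fun a => by simp [S.X_zero]) (fun a b b' h h' => ?_)
    (pow_ne_zero 2 hμ) hg (m := (S.μ : F) ^ 3) (fun a b h => ?_)
    (fun a ha => by simpa using hgen a ha) hA (fun b hb => by rw [one_mul]; exact h1 b hb)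
  · show ⁅S.X 0 1 a, S.X 1 2 (b + b')⁆ = _
    have e : ∀ p q r : G, ⁅p, q * r⁆ = ⁅p, q⁆ * (q * ⁅p, r⁆ * q⁻¹) := fun p q r => by
      simp only [commutatorElement_def]; group
    rw [S.X_add, e, h, h', (hc b (a * b')).eq, mul_inv_cancel_right, mul_add, S.X_add]
  · have := hh _ _ (hg _ _ (hg _ _ h))
    convert this using 2 <;> (try congr 1) <;> field_simp

include hgen in
theorem all_comp (hb : S.Base) : ∀ i j l : Fin 3, i ≠ j → j ≠ l → i ≠ l →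
    ∀ a b, ⁅S.X i j a, S.X j l b⁆ = S.X i l (a * b) := by
  have hx : ∀ a : G, ∀ p q : G, ⁅a * p * a⁻¹, a * q * a⁻¹⁆ = a * ⁅p, q⁆ * a⁻¹ := fun a p q => by
    simp only [commutatorElement_def]; group
  have hcc : ∀ i j l : Fin 3, (∀ a b, ⁅S.X i j a, S.X j l b⁆ = S.X i l (a * b)) →
      ∀ a b, ⁅S.X (i + 1) (j + 1) a, S.X (j + 1) (l + 1) b⁆ = S.X (i + 1) (l + 1) (a * b) := fun i j l h a b => by
    rw [← S.c_X, ← S.c_X, hx, h, S.c_X]
  have a0 := S.comp0 hgen hb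
  have a1 : ∀ a b, ⁅S.X 1 2 a, S.X 2 0 b⁆ = S.X 1 0 (a * b) := hcc 0 1 2 a0
  have a2 : ∀ a b, ⁅S.X 2 0 a, S.X 0 1 b⁆ = S.X 2 1 (a * b) := hcc 1 2 0 a1
  have b0 : ∀ a b, ⁅S.X 1 0 a, S.X 0 2 b⁆ = S.X 1 2 (a * b) := fun a b => by
    have e := congrArg (fun y => S.w * y * S.w⁻¹) (a0 (-a) b)
    simp only [← hx, S.w_X, σ, ε] at e
    convert e using 2 <;> simp
  have b1 : ∀ a b, ⁅S.X 2 1 a, S.X 1 0 b⁆ = S.X 2 0 (a * b) := hcc 1 0 2 b0
  have b2 : ∀ a b, ⁅S.X 0 2 a, S.X 2 1 b⁆ = S.X 0 1 (a * b) := hcc 2 1 0 b1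
  intro i j l h1 h2 h3 a b
  fin_cases i <;> fin_cases j <;> fin_cases l <;> first
    | exact absurd rfl h1 | exact absurd rfl h2 | exact absurd rfl h3
    | exact a0 a b | exact a1 a b | exact a2 a b | exact b0 a b | exact b1 a b | exact b2 a b

include hgen in
/-- The relations of Steinberg. -/
theorem exists_rels (hb : S.Base) : ∃ R : Cfsg.Agent.Suzuki.SLSt.Rels G (Fin 3) F, R.x = S.X :=
  ⟨⟨S.X, fun i j _ t u => (S.X_add i j t u).symm,
    fun i j k l h1 h2 h3 h4 t u => S.all_comm hgen hb i j k l h1 h2 h3 h4 t u,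
    fun i j l h1 h2 h3 t u => S.all_comp hgen hb i j l h1 h2 h3 t u⟩, rfl⟩

include hgen in
/-- The presented group is an image of the special linear group. -/
theorem exists_section (hb : S.Base) (hG : Subgroup.closure ({S.x 1, S.w, S.c, S.h} : Set G) = ⊤) :
    ∃ s : Matrix.SpecialLinearGroup (Fin 3) F →* G, Function.Surjective s ∧
      ∀ (i j : Fin 3) (h : i ≠ j) (t : F), s (Matrix.SpecialLinearGroup.transvection h t) = S.X i j t := by
  obtain ⟨R, hR⟩ := S.exists_rels hgen hb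
  obtain ⟨s, hs⟩ := Cfsg.Agent.Suzuki.SLSt.exists_section (le_refl 3) R
  rw [hR] at hs
  refine ⟨s, ?_, hs⟩
  set H := s.range with hH
  have hX : ∀ i j t, S.X i j t ∈ H := fun i j t => by
    by_cases h : i = j
    · rw [show S.X i j t = 1 by simp [X, h]]; exact one_mem _
    · exact ⟨_, hs i j h t⟩
  have hw : S.w ∈ H := by
    rw [S.w_eq, w_x, ← S.X01]
    exact mul_mem (mul_mem (hX _ _ _) (hX _ _ _)) (hX _ _ _)
  have hwinv : ∀ y : G, (∀ i j t, ∃ t', y * S.X i j t * y⁻¹ = S.X i j t') → y * S.w⁻¹ * y⁻¹ ∈ H := by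
    intro y hy
    have : y * S.w * y⁻¹ ∈ H := by
      obtain ⟨t1, e1⟩ := hy 0 1 1
      obtain ⟨t2, e2⟩ := hy 1 0 (-1)
      have : y * S.w * y⁻¹ = S.X 0 1 t1 * S.X 1 0 t2 * S.X 0 1 t1 := by
        rw [← e1, ← e2]; conv_lhs => rw [S.w_eq, w_x, ← S.X01]
        group
      rw [this]
      exact mul_mem (mul_mem (hX _ _ _) (hX _ _ _)) (hX _ _ _)
    rw [show y * S.w⁻¹ * y⁻¹ = (y * S.w * y⁻¹)⁻¹ by group]
    exact inv_mem this
  have hcX : ∀ y ∈ H, S.c * y * S.c⁻¹ ∈ H := by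
    rintro _ ⟨z, rfl⟩
    refine Cfsg.Agent.Linear.transvection_induction (fun z => S.c * s z * S.c⁻¹ ∈ H) (fun i j h t => ?_)
      (fun a b ha hb => ?_) z
    · rw [hs, c_X]; exact hX _ _ _
    · rw [show S.c * s (a * b) * S.c⁻¹ = (S.c * s a * S.c⁻¹) * (S.c * s b * S.c⁻¹) by rw [map_mul]; group]
      exact mul_mem ha hb
  have hh : S.h ∈ H := by
    have e : S.h = S.w * (S.g * S.w⁻¹ * S.g⁻¹) := by
      rw [← mul_assoc, ← mul_assoc, show S.w * S.g * S.w⁻¹ = S.h * S.g from S.w_g, mul_inv_cancel_right]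
    rw [e]
    exact mul_mem hw (hwinv _ fun i j t => ⟨_, S.g_X i j t⟩)
  have hc : S.c ∈ H := by
    have hg : S.g ∈ H := hcX _ hh
    have hcc : S.c * S.c ∈ H := by
      have e : S.c * S.c = (S.w * (S.c * S.w * S.c⁻¹))⁻¹ * S.g ^ S.e := by
        rw [show S.g ^ S.e = S.w * S.c * (S.w * S.c) from S.wc_sq.symm]; group
      rw [e]
      exact mul_mem (inv_mem (mul_mem hw (hcX _ hw))) (pow_mem hg _)
    rw [← inv_inv S.c, S.c_inv]
    exact inv_mem hcc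
  rw [← MonoidHom.range_eq_top, eq_top_iff, ← hG, Subgroup.closure_le]
  rintro _ (rfl | rfl | rfl | rfl)
  exacts [S.X01 1 ▸ hX 0 1 1, hw, hc, hh]

end Cfsg.Agent.KnownA.Pres3.Sys
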