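import Cfsg.Agent.KnownA.Pres3.Fill
import Cfsg.Agent.Suzuki.SLPresentation

/-! The Steinberg relations of `SL₃` from relations between four generators. -/

set_option autoImplicit false
set_option linter.unusedSectionVars false

namespace Cfsg.Agent.KnownA.Pres3

open scoped commutatorElement

/-- Four elements with the torus and Weyl relations. -/
structure Sys (G : Type*) [Group G] (F : Type*) [Field F] where
  x : F → G
  w : G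
  c : G
  h : G
  μ : Fˣ
  e : ℕ
  add : ∀ a b, x (a + b) = x a * x b
  h_x : ∀ t, h * x t * h⁻¹ = x ((μ : F) ^ 2 * t)
  g_x : ∀ t, (c * h * c⁻¹) * x t * (c * h * c⁻¹)⁻¹ = x (((μ⁻¹ : Fˣ) : F) * t)
  h_comm : Commute h (c * h * c⁻¹)
  w_g : w * (c * h * c⁻¹) * w⁻¹ = h * (c * h * c⁻¹)
  mu_e : (μ : F) ^ e = -1
  w_sq : w * w = h ^ e
  c_cube : c * c * c = 1
  wc_sq : w * c * (w * c) = (c * h * c⁻¹) ^ e
  w_eq : w = x 1 * (w * x 1 * w⁻¹) * x 1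

namespace Sys

variable {G : Type*} [Group G] {F : Type*} [Field F] (S : Sys G F)

/-- The second torus element. -/
def g : G := S.c * S.h * S.c⁻¹

theorem x_zero : S.x 0 = 1 := by
  have := S.add 0 0
  rw [add_zero] at this
  exact left_eq_mul.mp this

theorem x_neg (t : F) : S.x (-t) = (S.x t)⁻¹ :=
  eq_inv_of_mul_eq_one_left (by rw [← S.add, neg_add_cancel, S.x_zero])

/-- The root elements. -/
def X (i j : Fin 3) (t : F) : G :=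
  if i = j then 1
  else if j = i + 1 then S.c ^ (i : ℕ) * S.x t * (S.c ^ (i : ℕ))⁻¹
  else S.c ^ (j : ℕ) * (S.w * S.x (-t) * S.w⁻¹) * (S.c ^ (j : ℕ))⁻¹

theorem X01 (t : F) : S.X 0 1 t = S.x t := by simp [X]

theorem X10 (t : F) : S.X 1 0 t = S.w * S.x (-t) * S.w⁻¹ := by simp [X]

theorem X12 (t : F) : S.X 1 2 t = S.c * S.x t * S.c⁻¹ := by simp [X]

theorem X21 (t : F) : S.X 2 1 t = S.c * (S.w * S.x (-t) * S.w⁻¹) * S.c⁻¹ := by simp [X]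

theorem X20 (t : F) : S.X 2 0 t = S.c * S.c * S.x t * (S.c * S.c)⁻¹ := by simp [X, pow_two]

theorem X02 (t : F) : S.X 0 2 t = S.c * S.c * (S.w * S.x (-t) * S.w⁻¹) * (S.c * S.c)⁻¹ := by simp [X, pow_two]

theorem c_inv : S.c⁻¹ = S.c * S.c := inv_eq_of_mul_eq_one_left S.c_cube

theorem c_X (i j : Fin 3) (t : F) : S.c * S.X i j t * S.c⁻¹ = S.X (i + 1) (j + 1) t := by
  fin_cases i <;> fin_cases j <;> simp only [Fin.isValue, Fin.reduceFinMk, Fin.zero_eta, Fin.mk_one,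
    show (0 : Fin 3) + 1 = 1 from rfl, show (1 : Fin 3) + 1 = 2 from rfl, show (2 : Fin 3) + 1 = 0 from rfl,
    X01, X10, X12, X21, X20, X02]
  all_goals first
    | (simp [X]; done)
    | (rw [show ∀ y : G, S.c * (S.c * S.c * y * (S.c * S.c)⁻¹) * S.c⁻¹ = (S.c * S.c * S.c) * y * (S.c * S.c * S.c)⁻¹
         from fun y => by group, S.c_cube]
       group; done)
    | group

theorem h_comm' : Commute S.h S.g := S.h_comm

theorem conj_pow_eq {a : G} {κ : F} {f : F → G} (hf : ∀ t, a * f t * a⁻¹ = f (κ * t)) :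
    ∀ (k : ℕ) t, a ^ k * f t * (a ^ k)⁻¹ = f (κ ^ k * t) := by
  intro k
  induction k with
  | zero => intro t; simp
  | succ k ih =>
    intro t
    rw [pow_succ' κ, mul_assoc κ, ← hf, ← ih, pow_succ']
    group

theorem mu_sq_e : (S.μ : F) ^ (2 * S.e) = 1 := by rw [mul_comm, pow_mul, S.mu_e, neg_one_sq]

theorem inv_mu_e : ((S.μ⁻¹ : Fˣ) : F) ^ S.e = -1 := by
  rw [Units.val_inv_eq_inv_val, inv_pow, S.mu_e, inv_neg, inv_one]

theorem w_sq_x (t : F) : S.w * S.w * S.x t * (S.w * S.w)⁻¹ = S.x t := by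
  rw [S.w_sq, conj_pow_eq S.h_x, ← pow_mul, S.mu_sq_e, one_mul]

theorem w_x (t : F) : S.w * S.x t * S.w⁻¹ = S.X 1 0 (-t) := by rw [X10, neg_neg]

theorem winv_x (t : F) : S.w⁻¹ * S.x t * S.w = S.X 1 0 (-t) := by
  rw [← S.w_x]
  conv_lhs => rw [← S.w_sq_x t]
  group

theorem w_h : S.w * S.h * S.w⁻¹ = S.h⁻¹ := by
  have hg : Commute (S.w * S.w) S.g := S.w_sq ▸ S.h_comm'.pow_left S.e
  have e1 : S.w * (S.h * S.g) * S.w⁻¹ = S.g := by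
    rw [← show S.w * S.g * S.w⁻¹ = S.h * S.g from S.w_g]
    calc S.w * (S.w * S.g * S.w⁻¹) * S.w⁻¹ = S.w * S.w * S.g * (S.w * S.w)⁻¹ := by group
      _ = S.g := by rw [hg.eq, mul_inv_cancel_right]
  have e2 : S.w * S.h * S.w⁻¹ * (S.w * S.g * S.w⁻¹) = S.g := by
    calc S.w * S.h * S.w⁻¹ * (S.w * S.g * S.w⁻¹) = S.w * (S.h * S.g) * S.w⁻¹ := by group
      _ = S.g := e1
  rw [show S.w * S.g * S.w⁻¹ = S.h * S.g from S.w_g] at e2
  rw [← mul_assoc] at e2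
  rw [eq_inv_iff_mul_eq_one]
  exact mul_eq_right.mp e2

theorem winv_h : S.w⁻¹ * S.h * S.w = S.h⁻¹ := by
  have : S.w⁻¹ * S.h⁻¹ * S.w = S.h := by rw [← S.w_h]; group
  calc S.w⁻¹ * S.h * S.w = (S.w⁻¹ * S.h⁻¹ * S.w)⁻¹ := by group
    _ = _ := by rw [this]

theorem winv_g : S.w⁻¹ * S.g * S.w = S.h * S.g := by
  have e : S.w⁻¹ * (S.h * S.g) * S.w = S.g := by
    rw [← show S.w * S.g * S.w⁻¹ = S.h * S.g from S.w_g]; group
  have e2 : (S.w⁻¹ * S.h * S.w) * (S.w⁻¹ * S.g * S.w) = S.g :=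
    (show _ = S.w⁻¹ * (S.h * S.g) * S.w by group).trans e
  rw [S.winv_h, inv_mul_eq_iff_eq_mul] at e2
  exact e2

theorem c_g : S.c * S.g * S.c⁻¹ = (S.h * S.g)⁻¹ := by
  have hwc : S.w * S.c * (S.w * S.c) = S.g ^ S.e := S.wc_sq
  calc S.c * S.g * S.c⁻¹ = (S.c * S.c) * S.h * (S.c * S.c)⁻¹ := by rw [g]; group
    _ = S.c⁻¹ * S.h * S.c := by rw [← S.c_inv, inv_inv]
    _ = (S.w * S.c)⁻¹ * (S.w * S.h * S.w⁻¹) * (S.w * S.c) := by group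
    _ = (S.w * S.c)⁻¹ * S.h⁻¹ * (S.w * S.c) := by rw [S.w_h]
    _ = (S.w * S.c * (S.w * S.c))⁻¹ * (S.w * (S.c * S.h * S.c⁻¹) * S.w⁻¹)⁻¹ * (S.w * S.c * (S.w * S.c)) := by group
    _ = (S.g ^ S.e)⁻¹ * (S.h * S.g)⁻¹ * S.g ^ S.e := by
      rw [show S.w * (S.c * S.h * S.c⁻¹) * S.w⁻¹ = S.h * S.g from S.w_g, hwc]
    _ = _ := by
      have : Commute (S.h * S.g)⁻¹ (S.g ^ S.e) :=
        ((S.h_comm'.mul_left (Commute.refl S.g)).pow_right S.e).inv_left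
      rw [mul_assoc, this.eq, inv_mul_cancel_left]

theorem cinv_h : S.c⁻¹ * S.h * S.c = (S.h * S.g)⁻¹ := by
  rw [← S.c_g, g]
  calc S.c⁻¹ * S.h * S.c = S.c * S.c * S.h * (S.c * S.c)⁻¹ := by rw [← S.c_inv, inv_inv]
    _ = _ := by group

/-- The diagonal of the torus element. -/
def χ : Fin 3 → Fˣ
  | 0 => S.μ
  | 1 => S.μ⁻¹
  | _ => 1

theorem h_X (i j : Fin 3) (t : F) :
    S.h * S.X i j t * S.h⁻¹ = S.X i j (((S.χ i * (S.χ j)⁻¹ : Fˣ) : F) * t) := by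
  have hμ : (S.μ : F) ≠ 0 := S.μ.ne_zero
  have hinv : ∀ {a : G} {κ : F}, κ ≠ 0 → (∀ s, a * S.x s * a⁻¹ = S.x (κ * s)) →
      ∀ s, a⁻¹ * S.x s * a = S.x (κ⁻¹ * s) := by
    intro a κ hκ ha s
    have := ha (κ⁻¹ * s)
    rw [← mul_assoc κ, mul_inv_cancel₀ hκ, one_mul] at this
    rw [← this]; group
  have hg_x : ∀ s, S.g * S.x s * S.g⁻¹ = S.x ((S.μ : F)⁻¹ * s) := fun s => by
    have := S.g_x s
    rwa [Units.val_inv_eq_inv_val] at this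
  have hhg : ∀ s, (S.h * S.g) * S.x s * (S.h * S.g)⁻¹ = S.x ((S.μ : F) * s) := fun s => by
    calc (S.h * S.g) * S.x s * (S.h * S.g)⁻¹ = S.h * (S.g * S.x s * S.g⁻¹) * S.h⁻¹ := by group
      _ = _ := by rw [hg_x, S.h_x, ← mul_assoc]; congr 1; field_simp
  fin_cases i <;> fin_cases j <;> simp only [Fin.isValue, Fin.reduceFinMk, Fin.zero_eta, Fin.mk_one,
    X01, X10, X12, X21, X20, X02, χ]
  all_goals try (simp [X]; done)
  · rw [S.h_x]; congr 1; simp [pow_two]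
  · calc S.h * (S.c * S.c * (S.w * S.x (-t) * S.w⁻¹) * (S.c * S.c)⁻¹) * S.h⁻¹
        = S.c * S.c * (((S.c * S.c)⁻¹ * S.h * (S.c * S.c)) * (S.w * S.x (-t) * S.w⁻¹) *
            ((S.c * S.c)⁻¹ * S.h * (S.c * S.c))⁻¹) * (S.c * S.c)⁻¹ := by group
      _ = S.c * S.c * (S.w * ((S.w⁻¹ * S.g * S.w) * S.x (-t) * (S.w⁻¹ * S.g * S.w)⁻¹) * S.w⁻¹) *
            (S.c * S.c)⁻¹ := by
          rw [show (S.c * S.c)⁻¹ * S.h * (S.c * S.c) = S.g by rw [← S.c_inv, inv_inv, g]]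
          group
      _ = _ := by rw [S.winv_g, hhg]; simp
  · calc S.h * (S.w * S.x (-t) * S.w⁻¹) * S.h⁻¹
        = S.w * ((S.w⁻¹ * S.h * S.w) * S.x (-t) * (S.w⁻¹ * S.h * S.w)⁻¹) * S.w⁻¹ := by group
      _ = _ := by rw [S.winv_h, inv_inv, hinv (pow_ne_zero 2 hμ) S.h_x]; simp [pow_two]
  · calc S.h * (S.c * S.x t * S.c⁻¹) * S.h⁻¹
        = S.c * ((S.c⁻¹ * S.h * S.c) * S.x t * (S.c⁻¹ * S.h * S.c)⁻¹) * S.c⁻¹ := by group
      _ = _ := by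
          rw [S.cinv_h, inv_inv, hinv hμ hhg]
          simp
  · calc S.h * (S.c * S.c * S.x t * (S.c * S.c)⁻¹) * S.h⁻¹
        = S.c * S.c * (((S.c * S.c)⁻¹ * S.h * (S.c * S.c)) * S.x t * ((S.c * S.c)⁻¹ * S.h * (S.c * S.c))⁻¹) *
            (S.c * S.c)⁻¹ := by group
      _ = _ := by
          rw [show (S.c * S.c)⁻¹ * S.h * (S.c * S.c) = S.g by rw [← S.c_inv, inv_inv, g], hg_x]
          simp
  · calc S.h * (S.c * (S.w * S.x (-t) * S.w⁻¹) * S.c⁻¹) * S.h⁻¹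
        = S.c * (S.w * ((S.w⁻¹ * (S.c⁻¹ * S.h * S.c) * S.w) * S.x (-t) * (S.w⁻¹ * (S.c⁻¹ * S.h * S.c) * S.w)⁻¹) *
            S.w⁻¹) * S.c⁻¹ := by group
      _ = _ := by
          rw [S.cinv_h]
          rw [show S.w⁻¹ * (S.h * S.g)⁻¹ * S.w = S.g⁻¹ by
            rw [← show S.w * S.g * S.w⁻¹ = S.h * S.g from S.w_g]; group,
            inv_inv, hinv (inv_ne_zero hμ) hg_x]
          simp

theorem g_X (i j : Fin 3) (t : F) :
    S.g * S.X i j t * S.g⁻¹ = S.X i j (((S.χ (i - 1) * (S.χ (j - 1))⁻¹ : Fˣ) : F) * t) := by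
  have hi : ∀ k : Fin 3, k - 1 + 1 = k := by decide
  calc S.g * S.X i j t * S.g⁻¹ = S.c * (S.h * S.X (i - 1) (j - 1) t * S.h⁻¹) * S.c⁻¹ := by
        conv_lhs => rw [← hi i, ← hi j, ← S.c_X]
        rw [g]; group
    _ = _ := by rw [h_X, c_X, hi, hi]

/-- The permutation of the Weyl element. -/
def σ : Fin 3 → Fin 3
  | 0 => 1
  | 1 => 0
  | _ => 2

/-- The signs of the Weyl element. -/
def ε : Fin 3 → F
  | 0 => -1
  | 1 => 1
  | _ => 1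

theorem w_X (i j : Fin 3) (t : F) : S.w * S.X i j t * S.w⁻¹ = S.X (σ i) (σ j) (ε i * ε j * t) := by
  have hD : ∀ i j t, S.g ^ S.e * S.X i j t * (S.g ^ S.e)⁻¹ =
      S.X i j (((S.χ (i - 1) * (S.χ (j - 1))⁻¹ : Fˣ) : F) ^ S.e * t) := fun i j => conj_pow_eq (S.g_X i j) S.e
  have hH : ∀ i j t, S.h ^ S.e * S.X i j t * (S.h ^ S.e)⁻¹ =
      S.X i j (((S.χ i * (S.χ j)⁻¹ : Fˣ) : F) ^ S.e * t) := fun i j => conj_pow_eq (S.h_X i j) S.e
  have hww : ∀ y, S.w * (S.w * y * S.w⁻¹) * S.w⁻¹ = S.h ^ S.e * y * (S.h ^ S.e)⁻¹ := fun y => by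
    rw [← S.w_sq]; group
  have hwc : S.w * S.c = S.g ^ S.e * (S.c⁻¹ * S.w⁻¹) := by
    rw [show S.g ^ S.e = S.w * S.c * (S.w * S.c) from S.wc_sq.symm]; group
  have hcw : S.c * S.w = S.w⁻¹ * S.g ^ S.e * S.c⁻¹ := by
    rw [show S.g ^ S.e = S.w * S.c * (S.w * S.c) from S.wc_sq.symm]; group
  have hcc : S.c⁻¹ = S.c * S.c := S.c_inv
  have h12 : ∀ t, S.w * S.X 1 2 t * S.w⁻¹ = S.X 0 2 t := fun t => by
    calc S.w * S.X 1 2 t * S.w⁻¹ = (S.w * S.c) * S.x t * (S.w * S.c)⁻¹ := by rw [X12]; group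
      _ = S.g ^ S.e * (S.c⁻¹ * (S.w⁻¹ * S.x t * S.w) * S.c) * (S.g ^ S.e)⁻¹ := by rw [hwc]; group
      _ = S.g ^ S.e * S.X 0 2 (-t) * (S.g ^ S.e)⁻¹ := by
          rw [S.winv_x, X10, X02, ← hcc, inv_inv]
      _ = _ := by
          rw [hD]; simp only [Fin.isValue, show (0 : Fin 3) - 1 = 2 from rfl, show (2 : Fin 3) - 1 = 1 from rfl, χ]
          simp [S.mu_e]
  have h21 : ∀ t, S.w * S.X 2 1 t * S.w⁻¹ = S.X 2 0 t := fun t => by
    have e : S.X 2 1 t = S.w⁻¹ * (S.g ^ S.e * S.X 2 0 (-t) * (S.g ^ S.e)⁻¹) * S.w := by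
      calc S.X 2 1 t = (S.c * S.w) * S.x (-t) * (S.c * S.w)⁻¹ := by rw [X21]; group
        _ = S.w⁻¹ * (S.g ^ S.e * (S.c⁻¹ * S.x (-t) * S.c⁻¹⁻¹) * (S.g ^ S.e)⁻¹) * S.w := by rw [hcw]; group
        _ = _ := by rw [X20, hcc]
    rw [e, hD]
    simp only [Fin.isValue, show (0 : Fin 3) - 1 = 2 from rfl, show (2 : Fin 3) - 1 = 1 from rfl, χ]
    simp [S.inv_mu_e, mul_assoc, inv_one, S.mu_e]
  fin_cases i <;> fin_cases j <;> simp only [Fin.isValue, Fin.reduceFinMk, Fin.zero_eta, Fin.mk_one, σ, ε]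
  all_goals try (simp [X]; done)
  · conv_lhs => rw [← h12 t]
    rw [hww, hH]; simp [χ, S.mu_e]
  · rw [X10, hww, conj_pow_eq S.h_x, ← pow_mul, S.mu_sq_e, one_mul, X01]; simp
  · rw [h12]; simp
  · conv_lhs => rw [← h21 t]
    rw [hww, hH]; simp [χ, S.mu_e]
  · rw [h21]; simp

end Sys

end Cfsg.Agent.KnownA.Pres3
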